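import Mathlib

/-!
Linear maps of prime order `r` prime to the characteristic over a finite field: every invariant subspace without
fixed vectors has dimension divisible by the order `c` of `q` modulo `r`, and the space is the sum of fixed vectors
and invariant pieces of dimension `c`.
-/

set_option autoImplicit false

open scoped Polynomial
open Polynomial

namespace CfsgLib.Omega.PrimeOrder

universe u v

variable {F : Type u} [Field F] {V : Type v} [AddCommGroup V] [Module F V]

/-- The vectors of `W` fixed by `y`. -/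
def fixedIn (y : V →ₗ[F] V) (W : Submodule F V) : Submodule F V :=
  W ⊓ LinearMap.ker (y - LinearMap.id)

theorem mem_fixedIn {y : V →ₗ[F] V} {W : Submodule F V} {v : V} : v ∈ fixedIn y W ↔ v ∈ W ∧ y v = v := by
  simp [fixedIn, sub_eq_zero]

theorem fixedIn_le (y : V →ₗ[F] V) (W : Submodule F V) : fixedIn y W ≤ W := inf_le_left

variable [Fintype F] {r : ℕ} [Fact r.Prime]

/-- The dimension and the fixed dimension of an invariant subspace agree modulo the order of `q`. -/
theorem orderOf_dvd_sub_finrank [Finite V] (hrF : (Fintype.card F : ZMod r) ≠ 0) (y : V →ₗ[F] V)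
    (W : Submodule F V) (hW : ∀ w ∈ W, y w ∈ W) (hy : ∀ v ∈ W, y^[r] v = v) :
    orderOf (Fintype.card F : ZMod r) ∣ Module.finrank F W - Module.finrank F (fixedIn y W) := by
  classical
  haveI : Fintype W := Fintype.ofFinite W
  have hit : ∀ (i : ℕ) (w : V), w ∈ W → y^[i] w ∈ W := by
    intro i
    induction i with
    | zero => exact fun w h => h
    | succ i ih => intro w h; rw [Function.iterate_succ_apply']; exact hW _ (ih w h)
  have hr0 : 0 < r := (Fact.out : r.Prime).pos
  let π : Equiv.Perm W :=
    { toFun := fun w => ⟨y w, hW _ w.2⟩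
      invFun := fun w => ⟨y^[r - 1] w, hit _ _ w.2⟩
      left_inv := fun w => Subtype.ext (by
        show y^[r - 1] (y w) = w
        rw [← Function.iterate_succ_apply, Nat.succ_eq_add_one, Nat.sub_add_cancel hr0, hy _ w.2])
      right_inv := fun w => Subtype.ext (by
        show y (y^[r - 1] w) = w
        rw [← Function.iterate_succ_apply' (f := y), Nat.succ_eq_add_one, Nat.sub_add_cancel hr0, hy _ w.2]) }
  have hπ : ∀ (i : ℕ) (w : W), ((π ^ i) w : V) = y^[i] w := by
    intro i
    induction i with
    | zero => intro w; rfl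
    | succ i ih =>
      intro w
      rw [pow_succ', Equiv.Perm.mul_apply, Function.iterate_succ_apply', ← ih w]
      rfl
  have hπr : π ^ r ^ 1 = 1 := Equiv.ext fun w => Subtype.ext (by rw [pow_one, hπ, hy _ w.2]; rfl)
  have hmod := Equiv.Perm.card_compl_support_modEq hπr
  have hfix : π.supportᶜ.card = Nat.card (fixedIn y W) := by
    rw [← Nat.card_eq_finsetCard]
    exact Nat.card_congr
      { toFun := fun w => ⟨w.1.1, mem_fixedIn.2 ⟨w.1.2, congrArg Subtype.val
          (Equiv.Perm.notMem_support.1 (Finset.mem_compl.1 w.2))⟩⟩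
        invFun := fun w => ⟨⟨w.1, (mem_fixedIn.1 w.2).1⟩, Finset.mem_compl.2
          (Equiv.Perm.notMem_support.2 (Subtype.ext (mem_fixedIn.1 w.2).2))⟩
        left_inv := fun w => rfl
        right_inv := fun w => rfl }
  have hle : Module.finrank F (fixedIn y W) ≤ Module.finrank F W := Submodule.finrank_mono (fixedIn_le y W)
  haveI : Fintype (fixedIn y W) := Fintype.ofFinite _
  rw [hfix, Nat.card_eq_fintype_card, Module.card_eq_pow_finrank (K := F) (V := fixedIn y W),
    Module.card_eq_pow_finrank (K := F) (V := W), ← ZMod.natCast_eq_natCast_iff] at hmod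
  push_cast at hmod
  refine orderOf_dvd_of_pow_eq_one (mul_left_cancel₀ (pow_ne_zero (Module.finrank F (fixedIn y W)) hrF) ?_)
  rw [← pow_add, Nat.add_sub_cancel' hle, mul_one, hmod]

/-- An invariant subspace without fixed vectors has dimension divisible by the order of `q`. -/
theorem orderOf_dvd_finrank_of_free [Finite V] (hrF : (Fintype.card F : ZMod r) ≠ 0) (y : V →ₗ[F] V)
    (W : Submodule F V) (hW : ∀ w ∈ W, y w ∈ W) (hy : ∀ v ∈ W, y^[r] v = v)
    (hfree : ∀ w ∈ W, y w = w → w = 0) :
    orderOf (Fintype.card F : ZMod r) ∣ Module.finrank F W := by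
  have h := orderOf_dvd_sub_finrank hrF y W hW hy
  have h0 : fixedIn y W = ⊥ := (Submodule.eq_bot_iff _).2 fun w hw =>
    hfree w (mem_fixedIn.1 hw).1 (mem_fixedIn.1 hw).2
  rwa [h0, finrank_bot, Nat.sub_zero] at h

omit [Fintype F] [Fact r.Prime] in
theorem pow_eq_one_of_iterate {y : Module.End F V} (hy : ∀ v, y^[r] v = v) : y ^ r = 1 :=
  LinearMap.ext fun v => by rw [Module.End.pow_apply, hy]; rfl

omit [Fact r.Prime] in
/-- An invariant subspace generated by one vector `w` killed by `g(y)` has dimension at most `deg g`. -/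
theorem finrank_le_of_minimal [Finite V] (u : Module.End F V) (g : F[X]) (hg : g.Monic)
    (hgu : aeval u g = 0) (hmin : ∀ S : Submodule F V, (∀ w ∈ S, u w ∈ S) → S ≠ ⊥ → S = ⊤) :
    Module.finrank F V ≤ g.natDegree := by
  classical
  by_cases hV : Subsingleton V
  · rw [Module.finrank_zero_of_subsingleton]; exact Nat.zero_le _
  rw [not_subsingleton_iff_nontrivial] at hV
  obtain ⟨w, hw⟩ := exists_ne (0 : V)
  let Φ : F[X] →ₗ[F] V :=
    (LinearMap.applyₗ w).comp (aeval u : F[X] →ₐ[F] Module.End F V).toLinearMap
  have hΦ : ∀ f, Φ f = aeval u f w := fun f => rfl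
  have htop : LinearMap.range Φ = ⊤ := by
    refine hmin _ ?_ fun h => hw ?_
    · rintro _ ⟨f, rfl⟩
      exact ⟨X * f, by rw [hΦ, hΦ, map_mul, aeval_X]; rfl⟩
    · have : w ∈ LinearMap.range Φ := ⟨1, by rw [hΦ, map_one]; rfl⟩
      rwa [h, Submodule.mem_bot] at this
  have hsurj : Function.Surjective (Φ.comp (degreeLT F g.natDegree).subtype) := by
    intro v
    obtain ⟨f, rfl⟩ := LinearMap.range_eq_top.1 htop v
    refine ⟨⟨f %ₘ g, ?_⟩, ?_⟩
    · rw [mem_degreeLT]
      exact lt_of_lt_of_le (degree_modByMonic_lt f hg) degree_le_natDegree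
    · show Φ (f %ₘ g) = Φ f
      conv_rhs => rw [← modByMonic_add_div f g]
      rw [hΦ, hΦ, map_add, map_mul, hgu, zero_mul, add_zero]
  haveI : Module.Finite F (degreeLT F g.natDegree) := Module.Finite.equiv (degreeLTEquiv F g.natDegree).symm
  calc Module.finrank F V ≤ Module.finrank F (degreeLT F g.natDegree) := by
        have := LinearMap.finrank_range_le (Φ.comp (degreeLT F g.natDegree).subtype)
        rwa [LinearMap.range_eq_top.2 hsurj, finrank_top] at this
    _ = g.natDegree := by rw [(degreeLTEquiv F g.natDegree).finrank_eq, Module.finrank_fin_fun]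

/-- An irreducible map of order `r` acts in dimension at most the order of `q` modulo `r`. -/
theorem finrank_le_orderOf [Finite V] (hrF : (Fintype.card F : ZMod r) ≠ 0) (u : Module.End F V)
    (hu : ∀ v, u^[r] v = v) (hmin : ∀ S : Submodule F V, (∀ w ∈ S, u w ∈ S) → S ≠ ⊥ → S = ⊤) :
    Module.finrank F V ≤ orderOf (Fintype.card F : ZMod r) := by
  classical
  set c := orderOf (Fintype.card F : ZMod r) with hc
  by_cases hV : Subsingleton V
  · rw [Module.finrank_zero_of_subsingleton]; exact Nat.zero_le _
  rw [not_subsingleton_iff_nontrivial] at hV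
  have hint : IsIntegral F u := IsIntegral.of_finite F u
  have hdeg : 0 < (minpoly F u).degree := minpoly.degree_pos hint
  obtain ⟨g, hgm, hgi, hgd⟩ := exists_monic_irreducible_factor (minpoly F u)
    (fun h => by rw [degree_eq_zero_of_isUnit h] at hdeg; exact lt_irrefl _ hdeg)
  obtain ⟨h, hh⟩ := hgd
  have hh0 : h ≠ 0 := fun h0 => minpoly.ne_zero hint (by rw [hh, h0, mul_zero])
  have hhu : aeval u h ≠ 0 := fun h0 => by
    have := minpoly.degree_le_of_ne_zero F u hh0 h0
    rw [hh, degree_mul] at this
    have hg1 : 0 < g.natDegree := Irreducible.natDegree_pos hgi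
    rw [degree_eq_natDegree hgi.ne_zero, degree_eq_natDegree hh0] at this
    norm_cast at this
    omega
  have hgu : aeval u g = 0 := by
    refine LinearMap.ker_eq_top.1 (hmin _ ?_ fun hbot => hhu ?_)
    · intro w hw
      rw [LinearMap.mem_ker] at hw ⊢
      have : aeval u g * u = u * aeval u g := by
        calc aeval u g * u = aeval u (g * X) := by rw [map_mul, aeval_X]
          _ = aeval u (X * g) := by rw [mul_comm]
          _ = u * aeval u g := by rw [map_mul, aeval_X]
      rw [← Module.End.mul_apply, this, Module.End.mul_apply, hw, map_zero]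
    · refine LinearMap.ext fun w => ?_
      have : aeval u h w ∈ LinearMap.ker (aeval u g) := by
        rw [LinearMap.mem_ker, ← Module.End.mul_apply, ← map_mul, ← hh, minpoly.aeval]
        rfl
      rw [hbot, Submodule.mem_bot] at this
      rw [this]; rfl
  obtain ⟨d, hd⟩ : r ∣ Fintype.card F ^ c - 1 := by
    rw [← ZMod.natCast_eq_zero_iff, Nat.cast_sub (Nat.one_le_pow _ _ Fintype.card_pos)]
    push_cast
    rw [hc, pow_orderOf_eq_one, sub_self]
  have hX : aeval u (X ^ Nat.card F ^ c - X : F[X]) = 0 := by
    have hN : Nat.card F ^ c = r * d + 1 := by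
      rw [Nat.card_eq_fintype_card, ← hd, Nat.sub_add_cancel (Nat.one_le_pow _ _ Fintype.card_pos)]
    rw [map_sub, map_pow, aeval_X, hN, pow_succ, pow_mul, pow_eq_one_of_iterate hu, one_pow, one_mul, sub_self]
  have hdvd : g ∣ X ^ Nat.card F ^ c - X := by
    by_contra hnd
    obtain ⟨A, B, hAB⟩ := (hgi.coprime_iff_not_dvd).2 hnd
    have := congrArg (aeval u) hAB
    rw [map_add, map_mul, map_mul, hgu, hX, mul_zero, mul_zero, add_zero, map_one] at this
    exact zero_ne_one this
  have hc0 : 0 < c := orderOf_pos_iff.2 (isOfFinOrder_iff_pow_eq_one.2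
    ⟨r - 1, Nat.sub_pos_of_lt (Fact.out : r.Prime).one_lt, ZMod.pow_card_sub_one_eq_one hrF⟩)
  exact (finrank_le_of_minimal u g hgm hgu hmin).trans
    (Nat.le_of_dvd hc0 (hgi.natDegree_dvd_of_dvd_X_pow_card_pow_sub_X hdvd))

/-- A moved map of prime order prime to the characteristic has an invariant piece of dimension `c` without
fixed vectors, with an invariant complement. -/
theorem exists_piece [Finite V] (hrF : (Fintype.card F : ZMod r) ≠ 0) (y : Module.End F V)
    (hy : ∀ v, y^[r] v = v) (hmove : ∃ v, y v ≠ v) :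
    ∃ W Q : Submodule F V, IsCompl W Q ∧ (∀ w ∈ W, y w ∈ W) ∧ (∀ w ∈ Q, y w ∈ Q) ∧
      Module.finrank F W = orderOf (Fintype.card F : ZMod r) ∧ ∀ w ∈ W, y w = w → w = 0 := by
  classical
  obtain ⟨p, hp⟩ := CharP.exists F
  haveI := Fact.mk (CharP.char_is_prime F p)
  have hrF' : (r : F) ≠ 0 := fun h => hrF (by
    obtain ⟨m, -, hm⟩ := FiniteField.card F p
    rw [CharP.cast_eq_zero_iff F p, Nat.prime_dvd_prime_iff_eq (Fact.out : p.Prime) Fact.out] at h
    rw [ZMod.natCast_eq_zero_iff, hm, h]
    exact dvd_pow_self r m.pos.ne')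
  set U := LinearMap.range (y - 1) with hU
  have hUinv : ∀ w ∈ U, y w ∈ U := by
    rintro _ ⟨z, rfl⟩
    exact ⟨y z, by simp⟩
  have hUfree : ∀ w ∈ U, y w = w → w = 0 := by
    rintro _ ⟨z, rfl⟩ hw
    set w := (y - 1) z with hwdef
    have hz : y z = z + w := by rw [hwdef]; simp
    have hit : ∀ i : ℕ, y^[i] z = z + (i : F) • w := by
      intro i
      induction i with
      | zero => simp
      | succ i ih =>
        rw [Function.iterate_succ_apply', ih, map_add, map_smul, hw, hz, Nat.cast_succ, add_smul, one_smul]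
        abel
    have := hit r
    rw [hy z, left_eq_add, smul_eq_zero] at this
    exact this.resolve_left hrF'
  have hUne : U ≠ ⊥ := fun h => by
    obtain ⟨v, hv⟩ := hmove
    have : (y - 1) v ∈ U := ⟨v, rfl⟩
    rw [h, Submodule.mem_bot] at this
    exact hv (sub_eq_zero.1 this)
  have hex : ∃ d, ∃ W : Submodule F V, ((∀ w ∈ W, y w ∈ W) ∧ W ≠ ⊥ ∧ W ≤ U) ∧ Module.finrank F W = d :=
    ⟨_, U, ⟨hUinv, hUne, le_rfl⟩, rfl⟩
  obtain ⟨W, ⟨hWinv, hWne, hWU⟩, hWd⟩ := Nat.find_spec hex
  have hWmin : ∀ S : Submodule F V, (∀ w ∈ S, y w ∈ S) → S ≠ ⊥ → S ≤ W → S = W := fun S h1 h2 h3 =>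
    Submodule.eq_of_le_of_finrank_le h3
      (hWd ▸ Nat.find_le ⟨S, ⟨h1, h2, h3.trans hWU⟩, rfl⟩)
  have hfree : ∀ w ∈ W, y w = w → w = 0 := fun w hw => hUfree w (hWU hw)
  have hdim : Module.finrank F W = orderOf (Fintype.card F : ZMod r) := by
    refine le_antisymm ?_ (Nat.le_of_dvd ?_ (orderOf_dvd_finrank_of_free hrF y W hWinv (fun v _ => hy v) hfree))
    · refine finrank_le_orderOf hrF (y.restrict hWinv) (fun v => Subtype.ext ?_) fun S hS hS0 => ?_
      · have hit : ∀ (i : ℕ) (v : W), (((y.restrict hWinv)^[i] v : W) : V) = y^[i] v := by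
          intro i
          induction i with
          | zero => intro v; rfl
          | succ i ih =>
            intro v
            rw [Function.iterate_succ_apply', Function.iterate_succ_apply', ← ih v]
            rfl
        rw [hit, hy]
      · have h := hWmin (S.map W.subtype) ?_ ?_ (Submodule.map_subtype_le W S)
        · rw [eq_top_iff]
          intro w _
          have : (w : V) ∈ S.map W.subtype := by rw [h]; exact w.2
          obtain ⟨s, hs, hsw⟩ := this
          rwa [← Subtype.ext hsw]
        · rintro _ ⟨s, hs, rfl⟩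
          exact ⟨_, hS s hs, rfl⟩
        · intro h0
          refine hS0 (Submodule.map_injective_of_injective W.injective_subtype ?_)
          rw [h0, Submodule.map_bot]
    · rw [Module.finrank_pos_iff, Submodule.nontrivial_iff_ne_bot]
      exact hWne
  have hss : y.IsSemisimple := Module.End.isSemisimple_of_squarefree_aeval_eq_zero
    (p := (X ^ r - 1 : F[X])) ((separable_X_pow_sub_C (1 : F) hrF' one_ne_zero).squarefree |> fun h => by
      simpa using h)
    (by rw [map_sub, map_pow, aeval_X, map_one, pow_eq_one_of_iterate hy, sub_self])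
  obtain ⟨Q, hQ, hWQ⟩ := Module.End.isSemisimple_iff.1 hss W
    ((Module.End.mem_invtSubmodule y).2 fun w hw => hWinv w hw)
  exact ⟨W, Q, hWQ, hWinv, fun w hw => (Module.End.mem_invtSubmodule y).1 hQ hw, hdim, hfree⟩

omit [Fintype F] [Fact r.Prime] in
/-- Identification of the index types of a piece and the remaining pieces. -/
def succPieceEquiv (c M k : ℕ) :
    Fin c ⊕ ((Fin M × Fin c) ⊕ Fin k) ≃ (Fin (M + 1) × Fin c) ⊕ Fin k :=
  (Equiv.sumAssoc _ _ _).symm.trans (Equiv.sumCongr
    (((Equiv.sumCongr (Equiv.uniqueProd (Fin c) (Fin 1)).symm (Equiv.refl _)).trans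
      (Equiv.sumProdDistrib (Fin 1) (Fin M) (Fin c)).symm).trans
      (((finSumFinEquiv).trans (finCongr (Nat.add_comm 1 M))).prodCongr (Equiv.refl _)))
    (Equiv.refl _))

/-- The structure of a map of prime order prime to the characteristic: fixed vectors and invariant pieces
of dimension `c`, each of them fixed pointwise or free of fixed vectors. -/
theorem exists_pieces (hrF : (Fintype.card F : ZMod r) ≠ 0) :
    ∀ (d : ℕ) (V : Type v) [AddCommGroup V] [Module F V] [Finite V],
      Module.finrank F V = d → ∀ y : V →ₗ[F] V, (∀ v, y^[r] v = v) →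
      ∃ M k : ℕ, d = M * orderOf (Fintype.card F : ZMod r) + k ∧ k < orderOf (Fintype.card F : ZMod r) ∧
        ∃ b : Module.Basis ((Fin M × Fin (orderOf (Fintype.card F : ZMod r))) ⊕ Fin k) F V,
          (∀ i, (∀ u, y (b (.inl (i, u))) = b (.inl (i, u))) ∨
            ((∀ w ∈ Submodule.span F (Set.range fun u => b (.inl (i, u))),
                y w ∈ Submodule.span F (Set.range fun u => b (.inl (i, u)))) ∧
              ∀ w ∈ Submodule.span F (Set.range fun u => b (.inl (i, u))), y w = w → w = 0)) ∧
          ∀ j, y (b (.inr j)) = b (.inr j) := by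
  classical
  set c := orderOf (Fintype.card F : ZMod r) with hc
  have hc0 : 0 < c := orderOf_pos_iff.2 (isOfFinOrder_iff_pow_eq_one.2
    ⟨r - 1, Nat.sub_pos_of_lt (Fact.out : r.Prime).one_lt, ZMod.pow_card_sub_one_eq_one hrF⟩)
  intro d
  induction d using Nat.strong_induction_on with
  | _ d ih =>
    intro V _ _ _ hd y hy
    by_cases hfix : ∀ v, y v = v
    · refine ⟨d / c, d % c, (Nat.div_add_mod' d c).symm, Nat.mod_lt _ hc0,
        (Module.finBasisOfFinrankEq F V hd).reindex (Fintype.equivOfCardEq (by
          simp [Nat.div_add_mod'])), fun i => .inl fun u => hfix _, fun j => hfix _⟩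
    push Not at hfix
    obtain ⟨W, Q, hWQ, hWinv, hQinv, hWd, hfree⟩ := exists_piece hrF y hy hfix
    have hsum := Submodule.finrank_add_eq_of_isCompl hWQ
    rw [hd, hWd] at hsum
    have hyQ : ∀ v : Q, (y.restrict hQinv)^[r] v = v := by
      have hit : ∀ (i : ℕ) (v : Q), (((y.restrict hQinv)^[i] v : Q) : V) = y^[i] v := by
        intro i
        induction i with
        | zero => intro v; rfl
        | succ i ih =>
          intro v
          rw [Function.iterate_succ_apply', Function.iterate_succ_apply', ← ih v]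
          rfl
      exact fun v => Subtype.ext (by rw [hit, hy])
    obtain ⟨M, k, hMk, hk, b', hb1, hb2⟩ :=
      ih (Module.finrank F Q) (by omega) Q rfl (y.restrict hQinv) hyQ
    let bW : Module.Basis (Fin c) F W := Module.finBasisOfFinrankEq F W hWd
    let b0 := (bW.prod b').map (Submodule.prodEquivOfIsCompl W Q hWQ)
    have hl : ∀ u, b0 (.inl u) = (bW u : V) := fun u => by simp [b0]
    have hr' : ∀ x, b0 (.inr x) = (b' x : V) := fun x => by simp [b0]
    refine ⟨M + 1, k, by rw [add_mul, one_mul]; omega, hk, b0.reindex (succPieceEquiv c M k), ?_, fun j => ?_⟩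
    · intro i
      obtain ⟨i', rfl⟩ := (finSumFinEquiv.trans (finCongr (Nat.add_comm 1 M))).surjective i
      rcases i' with i' | i'
      · right
        have hspan : (Submodule.span F (Set.range fun u =>
            b0.reindex (succPieceEquiv c M k)
              (.inl (finSumFinEquiv.trans (finCongr (Nat.add_comm 1 M)) (.inl i'), u)))) = W := by
          have : ∀ u, b0.reindex (succPieceEquiv c M k)
              (.inl (finSumFinEquiv.trans (finCongr (Nat.add_comm 1 M)) (.inl i'), u)) = W.subtype (bW u) := by
            intro u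
            rw [Module.Basis.reindex_apply, show (succPieceEquiv c M k).symm
              (.inl (finSumFinEquiv.trans (finCongr (Nat.add_comm 1 M)) (.inl i'), u)) = .inl u by
                rw [Equiv.symm_apply_eq]
                simp [succPieceEquiv, Subsingleton.elim i' 0], hl]
            rfl
          simp only [this]
          rw [show (fun u => W.subtype (bW u)) = W.subtype ∘ bW from rfl, Set.range_comp,
            ← Submodule.map_span, bW.span_eq, Submodule.map_subtype_top]
        rw [hspan]
        exact ⟨hWinv, hfree⟩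
      · have hb : ∀ u, b0.reindex (succPieceEquiv c M k)
              (.inl (finSumFinEquiv.trans (finCongr (Nat.add_comm 1 M)) (.inr i'), u)) =
            Q.subtype (b' (.inl (i', u))) := by
          intro u
          rw [Module.Basis.reindex_apply, show (succPieceEquiv c M k).symm
              (.inl (finSumFinEquiv.trans (finCongr (Nat.add_comm 1 M)) (.inr i'), u)) = .inr (.inl (i', u)) by
                rw [Equiv.symm_apply_eq]
                simp [succPieceEquiv], hr']
          rfl
        simp only [hb]
        rcases hb1 i' with h | ⟨h1, h2⟩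
        · exact .inl fun u => congrArg Subtype.val (h u)
        · right
          rw [show (fun u => Q.subtype (b' (.inl (i', u)))) = Q.subtype ∘ (fun u => b' (.inl (i', u))) from rfl,
            Set.range_comp, ← Submodule.map_span]
          refine ⟨?_, ?_⟩
          · rintro _ ⟨v, hv, rfl⟩
            exact ⟨_, h1 v hv, rfl⟩
          · rintro _ ⟨v, hv, rfl⟩ hfv
            rw [h2 v hv (Subtype.ext hfv), map_zero]
    · rw [Module.Basis.reindex_apply, show (succPieceEquiv c M k).symm (.inr j) = .inr (.inr j) by
        rw [Equiv.symm_apply_eq]; simp [succPieceEquiv], hr']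
      exact congrArg Subtype.val (hb2 j)

end CfsgLib.Omega.PrimeOrder
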