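import Cfsg.Agent.Lib.Omega.SymplecticInvolution
import Cfsg.Agent.Lib.Omega.SkewNilpotent
import Cfsg.Agent.Lib.Omega.PrimeOrderPieces

/-!
The moved space of an isometry of odd prime order prime to the characteristic has even dimension, and symplectic
spans of symplectic families.
-/

set_option autoImplicit false

open Module

namespace CfsgLib.Omega

universe u v

variable {F : Type u} [Field F] {V : Type v} [AddCommGroup V] [Module F V] [FiniteDimensional F V]

/-- A subspace on which an alternating form is non-degenerate has a symplectic family of basis vectors. -/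
theorem exists_symplectic_family (B : LinearMap.BilinForm F V) (hB : ∀ v, B v v = 0) (W : Submodule F V)
    (hW : ∀ w ∈ W, (∀ y ∈ W, B w y = 0) → w = 0) :
    ∃ (α : Type) (_ : Fintype α) (_ : DecidableEq α) (b : α × Fin 2 → V),
      (∀ i j s, B (b (i, s)) (b (j, s)) = 0) ∧ (∀ i j, B (b (i, 0)) (b (j, 1)) = if i = j then 1 else 0) ∧
      (∀ x, b x ∈ W) ∧ LinearIndependent F b ∧ Submodule.span F (Set.range b) = W := by
  obtain ⟨α, i1, i2, b, π, hb, hmem, hspan⟩ := exists_adapted_family_submodule (f := LinearMap.id) (z := 1) hB
    (fun _ _ => rfl) (fun w => (one_smul F w).symm) _ W rfl (fun w hw => hw) hW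
  refine ⟨α, i1, i2, b, hb.isotropic, hb.pairing, hmem, hb.linearIndependent hB, le_antisymm ?_ hspan⟩
  rw [Submodule.span_le]
  rintro _ ⟨x, rfl⟩
  exact hmem x

/-- An isometry of odd prime order of a symplectic space has fixed space of even dimension. -/
theorem even_finrank_fixed_alt (B : LinearMap.BilinForm F V) (hB : ∀ v, B v v = 0)
    (hnd : ∀ v, (∀ w, B v w = 0) → v = 0) {r : ℕ} (hrF : (r : F) ≠ 0) (f : V →ₗ[F] V)
    (hf : ∀ u w, B (f u) (f w) = B u w) (hr : ∀ v, f^[r] v = v) :
    Even (finrank F (LinearMap.ker (f - LinearMap.id))) := by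
  classical
  set W := LinearMap.ker (f - LinearMap.id) with hW
  have hfix : ∀ {w}, w ∈ W ↔ f w = w := fun {w} => by simp [hW, sub_eq_zero]
  have hWnd : ∀ w ∈ W, (∀ y ∈ W, B w y = 0) → w = 0 := by
    intro w hw hall
    refine hnd w fun v => ?_
    have hsum : ∑ i ∈ Finset.range r, f^[i] v ∈ W := by
      rw [hfix, map_sum]
      have h := Finset.sum_range_succ' (fun i => f^[i] v) r
      rw [Finset.sum_range_succ, hr] at h
      simp only [Function.iterate_zero_apply, add_left_inj] at h
      rw [h]
      exact Finset.sum_congr rfl fun i _ => (Function.iterate_succ_apply' f i v).symm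
    have hBi : ∀ i, B w (f^[i] v) = B w v := by
      intro i
      induction i with
      | zero => rfl
      | succ i ih =>
        rw [Function.iterate_succ_apply']
        conv_lhs => rw [← hfix.1 hw]
        rw [hf, ih]
    have h0 := hall _ hsum
    rw [map_sum, Finset.sum_congr rfl (fun i _ => hBi i), Finset.sum_const, Finset.card_range, nsmul_eq_mul] at h0
    exact (mul_eq_zero.1 h0).resolve_left hrF
  obtain ⟨α, _, _, b, -, -, -, hli, hspan⟩ := exists_symplectic_family B hB W hWnd
  rw [← hspan, finrank_span_eq_card hli, Fintype.card_prod, Fintype.card_fin]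
  exact ⟨Fintype.card α, by ring⟩

/-- An isometry of odd order of an orthogonal space moves a subspace of even dimension. -/
theorem even_finrank_moved_symm (h2 : (2 : F) ≠ 0) (B : LinearMap.BilinForm F V)
    (hsym : ∀ u w, B u w = B w u) (hnd : ∀ v, (∀ w, B v w = 0) → v = 0) {r : ℕ} (hodd : Odd r)
    (f : V →ₗ[F] V) (hf : ∀ u w, B (f u) (f w) = B u w) (hr : ∀ v, f^[r] v = v) :
    Even (finrank F (LinearMap.range (f - LinearMap.id))) := by
  obtain ⟨k, rfl⟩ := hodd
  set g : V →ₗ[F] V := f ^ (2 * k) with hg
  have hgf : ∀ v, g (f v) = v := fun v => by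
    rw [hg, Module.End.pow_apply]; exact hr v
  have hfg : ∀ v, f (g v) = v := fun v => by
    rw [hg, Module.End.pow_apply]; exact (Function.iterate_succ_apply' f (2 * k) v).symm.trans (hr v)
  have hskew : ∀ u w, B ((f - g) u) w = -B u ((f - g) w) := by
    intro u w
    have h1 := hf u (g w)
    rw [hfg] at h1
    have h3 := hf (g u) w
    rw [hfg] at h3
    simp only [LinearMap.sub_apply, map_sub, h1, h3]
    ring
  have hev := even_finrank_range_of_skew h2 B hsym hnd (f - g) hskew
  have hker : LinearMap.ker (f - g) = LinearMap.ker (f - LinearMap.id) := by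
    ext v
    simp only [LinearMap.mem_ker, LinearMap.sub_apply, sub_eq_zero, LinearMap.id_apply]
    constructor
    · intro h
      have h2' : f (f v) = v := by rw [h, hfg]
      have hit : ∀ i, f^[2 * i] v = v := by
        intro i
        induction i with
        | zero => rfl
        | succ i ih =>
          rw [show 2 * (i + 1) = (2 * i + 1) + 1 by ring, Function.iterate_succ_apply',
            Function.iterate_succ_apply', ih, h2']
      exact (congrArg f (hit k)).symm.trans ((Function.iterate_succ_apply' f (2 * k) v).symm.trans (hr v))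
    · intro h
      conv_rhs => rw [← h, hgf]
      exact h
  have e1 := LinearMap.finrank_range_add_finrank_ker (f - g)
  have e2 := LinearMap.finrank_range_add_finrank_ker (f - LinearMap.id)
  rw [hker] at e1
  rwa [show finrank F (LinearMap.range (f - LinearMap.id)) = finrank F (LinearMap.range (f - g)) by omega]

end CfsgLib.Omega
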