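import Mathlib

/-!
A symplectic map with scalar square decomposes the space orthogonally into invariant planes and pairs of planes
which it interchanges.
-/

set_option autoImplicit false

open Module

namespace CfsgLib.Omega

universe u v

variable {F : Type u} [Field F] {V : Type v} [AddCommGroup V] [Module F V]

/-- A symplectic family indexed by `α × Fin 2` on which `f` acts through the involution `π`: on each plane either
`f` interchanges the two lines, or `z = 1` and `f` sends the lines to the lines with the same label. -/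
structure AdaptedFamily (B : LinearMap.BilinForm F V) (f : V →ₗ[F] V) (z : F) {α : Type} [DecidableEq α]
    (b : α × Fin 2 → V) (π : Equiv.Perm α) : Prop where
  inv : π * π = 1
  isotropic : ∀ i j s, B (b (i, s)) (b (j, s)) = 0
  pairing : ∀ i j, B (b (i, 0)) (b (j, 1)) = if i = j then 1 else 0
  action : ∀ i, (π i = i ∧ ∃ k k' : F, k ≠ 0 ∧ f (b (i, 0)) = k • b (i, 1) ∧ f (b (i, 1)) = k' • b (i, 0)) ∨
    (z = 1 ∧ ∀ s, ∃ c : F, f (b (i, s)) = c • b (π i, s))

variable {B : LinearMap.BilinForm F V} {f : V →ₗ[F] V} {z : F}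

theorem alt_skew (hB : ∀ v, B v v = 0) (u w : V) : B u w = - B w u := by
  have h := hB (u + w)
  simp [hB] at h
  linear_combination h

theorem AdaptedFamily.map_mem_span {α : Type} [DecidableEq α] {b : α × Fin 2 → V} {π : Equiv.Perm α}
    (hb : AdaptedFamily B f z b π) (i : α) (s : Fin 2) :
    f (b (i, s)) ∈ Submodule.span F (b '' {x | x.1 = π i}) := by
  rcases hb.action i with ⟨hi, k, k', -, h0, h1⟩ | ⟨-, h⟩
  · fin_cases s
    · show f (b (i, 0)) ∈ _
      rw [h0]; exact Submodule.smul_mem _ _ (Submodule.subset_span ⟨(i, 1), hi.symm, rfl⟩)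
    · show f (b (i, 1)) ∈ _
      rw [h1]; exact Submodule.smul_mem _ _ (Submodule.subset_span ⟨(i, 0), hi.symm, rfl⟩)
  · obtain ⟨c, hc⟩ := h s
    rw [hc]; exact Submodule.smul_mem _ _ (Submodule.subset_span ⟨(π i, s), rfl, rfl⟩)

theorem AdaptedFamily.linearIndependent (hB : ∀ v, B v v = 0) {α : Type} [DecidableEq α] [Fintype α]
    {b : α × Fin 2 → V} {π : Equiv.Perm α} (hb : AdaptedFamily B f z b π) : LinearIndependent F b := by
  rw [Fintype.linearIndependent_iff]
  intro g hg
  have key : ∀ y, ∑ x, g x * B (b x) y = 0 := fun y => by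
    have := congrArg (fun v => B v y) hg
    simpa using this
  rintro ⟨j, s⟩
  have h10 : ∀ i, B (b (i, 1)) (b (j, 0)) = - (if j = i then 1 else 0) := fun i => by
    rw [alt_skew hB, hb.pairing]
  fin_cases s
  · have := key (b (j, 1))
    simp [Fintype.sum_prod_type, Fin.sum_univ_two, hb.pairing, hb.isotropic] at this
    exact this
  · have := key (b (j, 0))
    simp [Fintype.sum_prod_type, Fin.sum_univ_two, h10, hb.isotropic] at this
    exact this

variable [FiniteDimensional F V]

theorem exists_adapted_family_submodule (hB : ∀ v, B v v = 0) (hf : ∀ u w, B (f u) (f w) = B u w)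
    (hz : ∀ w, f (f w) = z • w) :
    ∀ (n : ℕ) (W : Submodule F V), finrank F W = n → (∀ w ∈ W, f w ∈ W) →
      (∀ w ∈ W, (∀ y ∈ W, B w y = 0) → w = 0) →
      ∃ (α : Type) (_ : Fintype α) (_ : DecidableEq α) (b : α × Fin 2 → V) (π : Equiv.Perm α),
        AdaptedFamily B f z b π ∧ (∀ x, b x ∈ W) ∧ W ≤ Submodule.span F (Set.range b) := by
  classical
  intro n
  induction n using Nat.strong_induction_on with
  | _ n ih =>
    intro W hn hWf hW
    by_cases hW0 : W = ⊥
    · exact ⟨Empty, inferInstance, inferInstance, fun x => x.1.elim, 1,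
        ⟨one_mul _, fun i => i.elim, fun i => i.elim, fun i => i.elim⟩, fun x => x.1.elim, by simp [hW0]⟩
    have hex : ∀ u ∈ W, u ≠ 0 → ∃ w ∈ W, B u w = 1 := by
      intro u hu hu0
      by_contra hc
      push Not at hc
      refine hu0 (hW u hu fun y hy => ?_)
      by_contra hy0
      exact hc ((B u y)⁻¹ • y) (W.smul_mem _ hy) (by simp [inv_mul_cancel₀ hy0])
    obtain ⟨u₀, hu₀, hu₀0⟩ := Submodule.exists_mem_ne_zero_of_ne_bot hW0
    have hz2 : z * z = 1 := by
      obtain ⟨w, _, huw⟩ := hex u₀ hu₀ hu₀0
      have h1 := hf u₀ w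
      rw [← hf] at h1
      simp only [hz, map_smul, LinearMap.smul_apply, smul_eq_mul] at h1
      linear_combination h1 + (1 - z * z) * huw
    have hzero : z ≠ 0 := fun h => by simp [h] at hz2
    have hadj : ∀ a c, B (f a) c = z * B a (f c) := by
      intro a c
      have h1 := hf (f a) c
      rw [hz, map_smul, LinearMap.smul_apply, smul_eq_mul] at h1
      exact h1.symm
    have hinj : ∀ a, f a = 0 → a = 0 := fun a ha => by
      have := hz a
      rw [ha, map_zero, eq_comm, smul_eq_zero] at this
      exact this.resolve_left hzero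
    -- a first piece
    have hfirst : ∃ (β : Type) (_ : Fintype β) (_ : DecidableEq β) (_ : Nonempty β) (b : β × Fin 2 → V)
        (π : Equiv.Perm β), AdaptedFamily B f z b π ∧ ∀ x, b x ∈ W := by
      by_cases hA : ∃ v ∈ W, B v (f v) ≠ 0
      · obtain ⟨v, hv, hk⟩ := hA
        let p : Fin 1 × Fin 2 → V := fun x => ![v, (B v (f v))⁻¹ • f v] x.2
        refine ⟨Fin 1, inferInstance, inferInstance, inferInstance, p, 1, ⟨one_mul _, ?_, ?_, ?_⟩, ?_⟩
        · intro i j s; fin_cases s <;> simp [p, hB]
        · intro i j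
          simp [p, Subsingleton.elim i j, inv_mul_cancel₀ hk]
        · intro i
          refine Or.inl ⟨rfl, B v (f v), (B v (f v))⁻¹ * z, hk, ?_, ?_⟩
          · simp [p, smul_smul, mul_inv_cancel₀ hk]
          · simp [p, hz, smul_smul]
        · rintro ⟨i, s⟩
          fin_cases s
          · simpa [p] using hv
          · simpa [p] using W.smul_mem _ (hWf v hv)
      · push Not at hA
        have hz1 : z = 1 := by
          obtain ⟨y, hy, hy1⟩ := hex (f u₀) (hWf _ hu₀) (fun h => hu₀0 (hinj _ h))
          have e := hA (u₀ + y) (W.add_mem hu₀ hy)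
          simp [hA u₀ hu₀, hA y hy] at e
          have e2 : B u₀ (f y) = z * B (f u₀) y := by
            rw [hadj, ← mul_assoc, hz2, one_mul]
          have e3 := alt_skew hB y (f u₀)
          rw [e2, e3, hy1] at e
          linear_combination e
        by_cases hS : ∀ v ∈ W, ∃ c : F, f v = c • v
        · obtain ⟨w, hw, huw⟩ := hex u₀ hu₀ hu₀0
          let p : Fin 1 × Fin 2 → V := fun x => ![u₀, w] x.2
          refine ⟨Fin 1, inferInstance, inferInstance, inferInstance, p, 1, ⟨one_mul _, ?_, ?_, ?_⟩, ?_⟩
          · intro i j s; fin_cases s <;> simp [p, hB]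
          · intro i j
            simp [p, Subsingleton.elim i j, huw]
          · intro i
            refine Or.inr ⟨hz1, fun s => ?_⟩
            fin_cases s
            · exact hS u₀ hu₀
            · exact hS w hw
          · rintro ⟨i, s⟩
            fin_cases s
            · simpa [p] using hu₀
            · simpa [p] using hw
        · push Not at hS
          obtain ⟨u, hu, hnon⟩ := hS
          have hu0 : u ≠ 0 := by
            rintro rfl
            exact hnon 0 (by simp)
          obtain ⟨y, hy, hy1⟩ := hex (f u) (hWf _ hu) (fun h => hu0 (hinj _ h))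
          have hex2 : ∃ w ∈ W, B (f u) w = 0 ∧ B u w = 1 := by
            by_contra hc
            push Not at hc
            have hzero' : ∀ w ∈ W, B (f u) w = 0 → B u w = 0 := by
              intro w hw h0
              by_contra hne
              exact hc ((B u w)⁻¹ • w) (W.smul_mem _ hw) (by simp [h0]) (by simp [inv_mul_cancel₀ hne])
            have hu' : u = B u y • f u := by
              rw [← sub_eq_zero]
              refine hW _ (W.sub_mem hu (W.smul_mem _ (hWf u hu))) fun w hw => ?_
              have := hzero' (w - B (f u) w • y) (W.sub_mem hw (W.smul_mem _ hy)) (by simp [hy1])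
              simp at this ⊢
              linear_combination this
            have hne : B u y ≠ 0 := fun h => hu0 (by rw [hu', h, zero_smul])
            refine hnon (B u y)⁻¹ ?_
            rw [← inv_smul_smul₀ hne (f u), ← hu']
          obtain ⟨w, hw, hw0, hw1⟩ := hex2
          let p : Fin 2 × Fin 2 → V := fun x => ![![u, w], ![f u, f w]] x.1 x.2
          have huf : B u (f w) = 0 := by
            have := hadj u w
            rw [hw0, hz1, one_mul] at this
            exact this.symm
          refine ⟨Fin 2, inferInstance, inferInstance, inferInstance, p, Equiv.swap 0 1, ⟨?_, ?_, ?_, ?_⟩, ?_⟩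
          · ext x : 1; simp
          · have a1 := hA u hu
            have a2 := hA w hw
            have a3 : B (f u) u = 0 := by rw [alt_skew hB, a1, neg_zero]
            have a4 : B (f w) w = 0 := by rw [alt_skew hB, a2, neg_zero]
            intro i j s; fin_cases i <;> fin_cases j <;> fin_cases s <;> simp [p, hB, a1, a2, a3, a4]
          · intro i j
            fin_cases i <;> fin_cases j <;> simp [p, hf, hw1, hw0, huf]
          · intro i
            refine Or.inr ⟨hz1, fun s => ⟨1, ?_⟩⟩
            fin_cases i <;> fin_cases s <;> simp [p, hz, hz1]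
          · rintro ⟨i, s⟩
            fin_cases i <;> fin_cases s <;> simp [p, hu, hw, hWf _ hu, hWf _ hw]
    obtain ⟨β, _, _, _, p, π₀, hp, hpW⟩ := hfirst
    let W' : Submodule F V := W ⊓ ⨅ x, LinearMap.ker (B.flip (p x))
    have hW'mem : ∀ w, w ∈ W' ↔ w ∈ W ∧ ∀ x, B w (p x) = 0 := by
      intro w; simp [W', Submodule.mem_iInf]
    have hW'f : ∀ w ∈ W', f w ∈ W' := by
      intro w hw
      rw [hW'mem] at hw ⊢
      refine ⟨hWf w hw.1, fun x => ?_⟩
      rw [hadj]
      suffices B w (f (p x)) = 0 by rw [this, mul_zero]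
      exact LinearMap.mem_ker.1 ((Submodule.span_le (p := LinearMap.ker (B w))).2
        (by rintro _ ⟨y, _, rfl⟩; exact hw.2 y) (hp.map_mem_span x.1 x.2))
    let P : V → V := fun w => ∑ i, (B w (p (i, 1)) • p (i, 0) - B w (p (i, 0)) • p (i, 1))
    have hPW : ∀ w, P w ∈ W := fun w =>
      W.sum_mem fun i _ => W.sub_mem (W.smul_mem _ (hpW _)) (W.smul_mem _ (hpW _))
    have hPspan : ∀ w, P w ∈ Submodule.span F (Set.range p) := fun w =>
      Submodule.sum_mem _ fun i _ => Submodule.sub_mem _
        (Submodule.smul_mem _ _ (Submodule.subset_span ⟨_, rfl⟩))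
        (Submodule.smul_mem _ _ (Submodule.subset_span ⟨_, rfl⟩))
    have hproj : ∀ w ∈ W, w - P w ∈ W' := by
      intro w hw
      rw [hW'mem]
      refine ⟨W.sub_mem hw (hPW w), ?_⟩
      rintro ⟨j, s⟩
      have h10 : ∀ i, B (p (i, 1)) (p (j, 0)) = - (if j = i then 1 else 0) := fun i => by
        rw [alt_skew hB, hp.pairing]
      fin_cases s <;>
        simp [P, hp.pairing, hp.isotropic, h10, Finset.sum_sub_distrib, mul_ite]
    have hW'nd : ∀ w ∈ W', (∀ y ∈ W', B w y = 0) → w = 0 := by
      intro w hw hall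
      refine hW w ((hW'mem w).1 hw).1 fun y hy => ?_
      have h1 : B w (P y) = 0 := LinearMap.mem_ker.1 ((Submodule.span_le (p := LinearMap.ker (B w))).2
        (by rintro _ ⟨x, rfl⟩; exact ((hW'mem w).1 hw).2 x) (hPspan y))
      have h2 := hall _ (hproj y hy)
      rw [map_sub, h1, sub_zero] at h2
      exact h2
    have hlt : finrank F W' < n := by
      rw [← hn]
      refine Submodule.finrank_lt_finrank_of_lt (lt_of_le_of_ne inf_le_left fun h => ?_)
      obtain ⟨i⟩ := ‹Nonempty β›
      have := ((hW'mem (p (i, 0))).1 (h ▸ hpW _)).2 (i, 1)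
      simp [hp.pairing] at this
    obtain ⟨α, _, _, b, π, hb, hbW, hspan⟩ := ih _ hlt W' rfl hW'f hW'nd
    have horth : ∀ x y, B (b x) (p y) = 0 ∧ B (p y) (b x) = 0 := fun x y =>
      ⟨((hW'mem _).1 (hbW x)).2 y, by rw [alt_skew hB, ((hW'mem _).1 (hbW x)).2 y, neg_zero]⟩
    let c : (β ⊕ α) × Fin 2 → V := fun x => Sum.elim (fun i => p (i, x.2)) (fun i => b (i, x.2)) x.1
    refine ⟨β ⊕ α, inferInstance, inferInstance, c, Equiv.sumCongr π₀ π, ⟨?_, ?_, ?_, ?_⟩, ?_, ?_⟩
    · ext x : 1
      rcases x with x | x
      · simpa using Equiv.Perm.ext_iff.1 hp.inv x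
      · simpa using Equiv.Perm.ext_iff.1 hb.inv x
    · rintro (i | i) (j | j) s
      · exact hp.isotropic i j s
      · exact (horth _ _).2
      · exact (horth _ _).1
      · exact hb.isotropic i j s
    · rintro (i | i) (j | j)
      · simpa [c] using hp.pairing i j
      · simpa [c] using (horth _ _).2
      · simpa [c] using (horth _ _).1
      · simpa [c] using hb.pairing i j
    · rintro (i | i)
      · simpa [c] using hp.action i
      · simpa [c] using hb.action i
    · rintro ⟨i | i, s⟩
      · exact hpW _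
      · exact ((hW'mem _).1 (hbW _)).1
    · intro w hw
      rw [← sub_add_cancel w (P w)]
      refine Submodule.add_mem _ ?_ ?_
      · exact Submodule.span_mono (by rintro _ ⟨⟨i, s⟩, rfl⟩; exact ⟨(.inr i, s), rfl⟩) (hspan (hproj w hw))
      · exact Submodule.span_mono (by rintro _ ⟨⟨i, s⟩, rfl⟩; exact ⟨(.inl i, s), rfl⟩) (hPspan w)

/-- Symplectic maps with scalar square have an adapted symplectic basis. -/
theorem exists_adapted_basis (hB : ∀ v, B v v = 0) (hnd : ∀ v, (∀ w, B v w = 0) → v = 0)
    (hf : ∀ u w, B (f u) (f w) = B u w) (hz : ∀ w, f (f w) = z • w) :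
    ∃ (α : Type) (_ : Fintype α) (_ : DecidableEq α) (b : Basis (α × Fin 2) F V) (π : Equiv.Perm α),
      AdaptedFamily B f z b π := by
  obtain ⟨α, i1, i2, b, π, hb, -, hspan⟩ := exists_adapted_family_submodule hB hf hz _ ⊤ rfl
    (fun w _ => Submodule.mem_top) (fun w _ h => hnd w fun y => h y Submodule.mem_top)
  refine ⟨α, i1, i2, Basis.mk (hb.linearIndependent hB) hspan, π, ?_⟩
  rw [Basis.coe_mk]
  exact hb

end CfsgLib.Omega
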